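import Cfsg.Agent.RankTwoClass.Basic
import Cfsg.Agent.TwoRegular.Basic
import Cfsg.Agent.ClassSizes.NotDvdIndex
import Mathlib

/-!
Groups whose class sizes are `1`, `n`, `m` and `n * m` with `n` and `m` coprime: basic facts, and facts
about the largest `s`-subgroups of a subgroup.
-/

set_option autoImplicit false

namespace CfsgLib.ClassSizeNM

open CfsgLib.TwoSizes (cen mem_cen IsPElt cen_mul_le center_le_cen cen_eq_top le_of_forall_pElt)
open CfsgLib.CoprimeLargest (idx idx_ne_zero idx_eq_one_iff idx_conj idx_dvd_of_le cen_eq_of_le_of_idx)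
open CfsgLib.RankTwoClass (isPElt_conj isPElt_of_mem isPGroup_zpowers cen_mul_eq_inf card_fact_add
  center_fact_lt)

variable {G : Type*} [Group G]

theorem mem_cen_iff_commute {g x : G} : g ∈ cen x ↔ Commute g x := mem_cen

theorem cen_le_zpowers {g v : G} (hv : v ∈ Subgroup.zpowers g) : cen g ≤ cen v := fun h hh => by
  obtain ⟨i, rfl⟩ := Subgroup.mem_zpowers_iff.1 hv
  exact mem_cen.2 (Commute.zpow_right (mem_cen.1 hh : Commute h g) i).eq

theorem zpowers_le_cen {g v : G} (hv : v ∈ Subgroup.zpowers g) : v ∈ cen g := by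
  obtain ⟨i, rfl⟩ := Subgroup.mem_zpowers_iff.1 hv
  exact mem_cen.2 (Commute.zpow_left (Commute.refl g) i).eq

theorem conj_commute {a b : G} (h : Commute a b) (g : G) : Commute (g * a * g⁻¹) (g * b * g⁻¹) :=
  (Commute.conj_iff g).2 h

theorem conj_mem_center {a : G} (g : G) (h : a ∈ Subgroup.center G) : g * a * g⁻¹ ∈ Subgroup.center G :=
  (inferInstance : (Subgroup.center G).Normal).conj_mem a h g

theorem conj_not_center {a : G} (g : G) (h : a ∉ Subgroup.center G) :
    g * a * g⁻¹ ∉ Subgroup.center G := fun hc => h (by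
  simpa [mul_assoc] using conj_mem_center g⁻¹ hc)

variable [Finite G]

/-- A subgroup `T` of `K` which is an `s`-group of the largest possible order. -/
structure Full (s : ℕ) (K T : Subgroup G) : Prop where
  le : T ≤ K
  pgroup : IsPGroup s T
  card : Nat.card T = s ^ (Nat.card K).factorization s

variable {s : ℕ}

theorem exists_full [Fact s.Prime] (K : Subgroup G) : ∃ T, Full s K T := by
  obtain ⟨T, h1, h2, h3⟩ := CfsgLib.TwoRegular.exists_sylow_card (r := s) K
  exact ⟨T, h1, h2, h3⟩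

theorem Full.eq_of_le [Fact s.Prime] {K T S : Subgroup G} (hT : Full s K T) (hS : IsPGroup s S)
    (hSK : S ≤ K) (hTS : T ≤ S) : T = S :=
  Subgroup.eq_of_le_of_card_ge hTS (hT.card.symm ▸ CfsgLib.TwoRegular.card_le_of_pGroup hS hSK)

theorem Full.of_fact {K L T : Subgroup G} (hT : Full s L T) (hLK : L ≤ K)
    (h : (Nat.card L).factorization s = (Nat.card K).factorization s) : Full s K T :=
  ⟨hT.le.trans hLK, hT.pgroup, h ▸ hT.card⟩

theorem Full.mem_of_normalizes [Fact s.Prime] {K T : Subgroup G} (hT : Full s K T) {u : G} (hu : u ∈ K)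
    (hus : IsPElt s u) (hn : u ∈ Subgroup.normalizer (T : Set G)) : u ∈ T := by
  have h1 : IsPGroup s (Subgroup.zpowers u ⊔ T : Subgroup G) :=
    (isPGroup_zpowers hus).to_sup_of_normal_right' hT.pgroup (Subgroup.zpowers_le.2 hn)
  rw [hT.eq_of_le h1 (sup_le (Subgroup.zpowers_le.2 hu) hT.le) le_sup_right]
  exact Subgroup.mem_sup_left (Subgroup.mem_zpowers u)

theorem mem_normalizer_of_commute {T : Subgroup G} {u : G} (h : ∀ t ∈ T, Commute u t) :
    u ∈ Subgroup.normalizer (T : Set G) :=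
  Subgroup.centralizer_le_normalizer _ (Subgroup.mem_centralizer_iff.2 fun t ht => (h t ht).eq.symm)

theorem Full.exists_le [Fact s.Prime] {K : Subgroup G} {U : Subgroup G} (hU : IsPGroup s U) (hUK : U ≤ K) :
    ∃ T, Full s K T ∧ U ≤ T := by
  have h1 : IsPGroup s (U.subgroupOf K) := hU.of_equiv (Subgroup.subgroupOfEquivOfLe hUK).symm
  obtain ⟨S, hS⟩ := h1.exists_le_sylow
  refine ⟨(S : Subgroup K).map K.subtype, ⟨Subgroup.map_subtype_le _, S.isPGroup'.map _, ?_⟩, ?_⟩
  · rw [Subgroup.card_map_of_injective K.subtype_injective]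
    exact S.card_eq_multiplicity
  · exact fun u hu => ⟨⟨u, hUK hu⟩, hS hu, rfl⟩

theorem Full.exists_conj [Fact s.Prime] {K T T' : Subgroup G} (hT : Full s K T) (hT' : Full s K T') :
    ∃ c ∈ K, ∀ t : G, t ∈ T' ↔ c * t * c⁻¹ ∈ T := by
  classical
  have hc : ∀ {X : Subgroup G}, Full s K X →
      Nat.card (X.subgroupOf K) = s ^ (Nat.card K).factorization s := fun {X} hX => by
    rw [Nat.card_congr (Subgroup.subgroupOfEquivOfLe hX.le).toEquiv, hX.card]
  obtain ⟨c, hcc⟩ := MulAction.exists_smul_eq K (Sylow.ofCard _ (hc hT')) (Sylow.ofCard _ (hc hT))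
  refine ⟨c, c.2, ?_⟩
  have hfwd : ∀ t ∈ T', (c : G) * t * (c : G)⁻¹ ∈ T := by
    intro t ht
    have h1 : MulAut.conj c (⟨t, hT'.le ht⟩ : K) ∈ ((c • Sylow.ofCard _ (hc hT') : Sylow s K) : Subgroup K) := by
      rw [Sylow.coe_subgroup_smul]
      exact Subgroup.smul_mem_pointwise_smul (⟨t, hT'.le ht⟩ : K) (MulAut.conj c) _
        (show (⟨t, hT'.le ht⟩ : K) ∈ (Sylow.ofCard _ (hc hT') : Sylow s K) from ht)
    rw [hcc] at h1
    exact h1
  intro t
  refine ⟨hfwd t, fun ht => ?_⟩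
  have e : T'.map (MulAut.conj (c : G)).toMonoidHom = T := by
    refine Subgroup.eq_of_le_of_card_ge ?_ ?_
    · rintro _ ⟨u, hu, rfl⟩; exact hfwd u hu
    · rw [Subgroup.card_map_of_injective (MulAut.conj (c : G)).injective, hT'.card, hT.card]
  obtain ⟨u, hu, hue⟩ := e.ge ht
  have : u = t := (MulAut.conj (c : G)).injective hue
  exact this ▸ hu

theorem Full.exists_conj_mem [Fact s.Prime] {K T : Subgroup G} (hT : Full s K T) {u : G} (hu : u ∈ K)
    (hus : IsPElt s u) : ∃ c ∈ K, c * u * c⁻¹ ∈ T := by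
  obtain ⟨T', hT', hle⟩ := Full.exists_le (isPGroup_zpowers hus) (Subgroup.zpowers_le.2 hu)
  obtain ⟨c, hc, h⟩ := hT.exists_conj hT'
  exact ⟨c, hc, (h u).1 (hle (Subgroup.mem_zpowers u))⟩

/-- A normal `s`-subgroup meets `K` inside every largest `s`-subgroup of `K`. -/
theorem Full.normal_le [Fact s.Prime] {K T : Subgroup G} (hT : Full s K T) {N : Subgroup G} [N.Normal]
    (hN : IsPGroup s N) : N ⊓ K ≤ T := by
  intro u hu
  refine hT.eq_of_le (hT.pgroup.to_sup_of_normal_right' (hN.to_le inf_le_left) ?_)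
    (sup_le hT.le (inf_le_right : N ⊓ K ≤ K)) le_sup_left ▸ Subgroup.mem_sup_right hu
  intro t ht
  rw [Subgroup.mem_normalizer_iff]
  intro v
  have hNn : N.Normal := inferInstance
  constructor
  · rintro ⟨h1, h2⟩
    exact ⟨hNn.conj_mem v h1 t, K.mul_mem (K.mul_mem (hT.le ht) h2) (K.inv_mem (hT.le ht))⟩
  · rintro ⟨h1, h2⟩
    have e : t⁻¹ * (t * v * t⁻¹) * t⁻¹⁻¹ = v := by group
    exact ⟨e ▸ hNn.conj_mem _ h1 t⁻¹,
      e ▸ K.mul_mem (K.mul_mem (K.inv_mem (hT.le ht)) h2) (K.inv_mem (K.inv_mem (hT.le ht)))⟩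

/-- If every element of `K` normalises some largest `s`-subgroup, all `s`-elements lie in one. -/
theorem Full.mem_of_cover [Fact s.Prime] {K T : Subgroup G} (hT : Full s K T)
    (h : ∀ g ∈ K, ∃ T', Full s K T' ∧ g ∈ Subgroup.normalizer (T' : Set G)) :
    (∀ u ∈ K, IsPElt s u → u ∈ T) ∧ ∀ g ∈ K, g ∈ Subgroup.normalizer (T : Set G) := by
  have htop : (Subgroup.normalizer (T : Set G)).subgroupOf K = ⊤ := by
    refine CfsgLib.ClassSizes.eq_top_of_conj_cover _ fun g => ?_
    obtain ⟨T', hT', hg⟩ := h g g.2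
    obtain ⟨c, hc, hcT⟩ := hT.exists_conj hT'
    refine ⟨⟨c⁻¹, K.inv_mem hc⟩, ?_⟩
    rw [Subgroup.mem_subgroupOf]
    show c⁻¹⁻¹ * (g : G) * c⁻¹ ∈ Subgroup.normalizer (T : Set G)
    rw [inv_inv, Subgroup.mem_normalizer_iff]
    intro t
    have h1 := hcT (c⁻¹ * t * c)
    rw [show c * (c⁻¹ * t * c) * c⁻¹ = t by group] at h1
    have h2 := hcT ((g : G) * (c⁻¹ * t * c) * (g : G)⁻¹)
    rw [← h1, (Subgroup.mem_normalizer_iff.1 hg (c⁻¹ * t * c)), h2]
    group
  have hn : ∀ g ∈ K, g ∈ Subgroup.normalizer (T : Set G) := fun g hg => by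
    have := Subgroup.mem_top (⟨g, hg⟩ : K)
    rw [← htop, Subgroup.mem_subgroupOf] at this
    exact this
  exact ⟨fun u hu hus => hT.mem_of_normalizes hu hus (hn u hu), hn⟩

theorem sylow_full (S : Sylow s G) [Fact s.Prime] : Full s (⊤ : Subgroup G) (S : Subgroup G) :=
  ⟨le_top, S.isPGroup', by rw [Subgroup.card_top]; exact S.card_eq_multiplicity⟩

theorem exists_conj_mem_sylow [Fact s.Prime] (S : Sylow s G) {u : G} (hus : IsPElt s u) :
    ∃ c, c * u * c⁻¹ ∈ (S : Subgroup G) := by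
  obtain ⟨c, -, h⟩ := (sylow_full S).exists_conj_mem (Subgroup.mem_top u) hus
  exact ⟨c, h⟩

theorem exists_conj_mem_of_not_dvd [Fact s.Prime] {x : G} (h : ¬ s ∣ idx x) {u : G} (hus : IsPElt s u) :
    ∃ c, c * u * c⁻¹ ∈ cen x := by
  obtain ⟨S, hS⟩ := CfsgLib.ClassSizes.exists_sylow_le_of_not_dvd_index (cen x) h
  obtain ⟨c, hc⟩ := exists_conj_mem_sylow S hus
  exact ⟨c, hS hc⟩

/-- An `s`-element of class size prime to `s` is conjugate into the centre of any Sylow `s`-subgroup. -/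
theorem exists_conj_central_sylow [Fact s.Prime] (T : Sylow s G) {x : G} (hxs : IsPElt s x)
    (h : ¬ s ∣ idx x) : ∃ g, g * x * g⁻¹ ∈ (T : Subgroup G) ∧ ∀ t ∈ (T : Subgroup G), Commute t (g * x * g⁻¹) := by
  obtain ⟨S, hS⟩ := CfsgLib.ClassSizes.exists_sylow_le_of_not_dvd_index (cen x) h
  have hxS : x ∈ (S : Subgroup G) := (sylow_full S).mem_of_normalizes (Subgroup.mem_top x) hxs
    (mem_normalizer_of_commute fun t ht => (mem_cen_iff_commute.1 (hS ht)).symm)
  obtain ⟨c, -, hc⟩ := (sylow_full T).exists_conj (sylow_full S)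
  refine ⟨c, (hc x).1 hxS, fun t ht => ?_⟩
  have h1 := hc (c⁻¹ * t * c)
  rw [show c * (c⁻¹ * t * c) * c⁻¹ = t by group] at h1
  have h2 := conj_commute (mem_cen_iff_commute.1 (hS (h1.2 ht))) c
  rwa [show c * (c⁻¹ * t * c) * c⁻¹ = t by group] at h2

theorem exists_noncentral_pElt [Fact s.Prime] {K : Subgroup G}
    (h : (Nat.card (Subgroup.center G)).factorization s < (Nat.card K).factorization s) :
    ∃ u ∈ K, IsPElt s u ∧ u ∉ Subgroup.center G := by
  obtain ⟨T, hT⟩ := exists_full (s := s) K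
  by_contra hno
  push Not at hno
  have hle : T ≤ Subgroup.center G := fun u hu => hno u (hT.le hu) (isPElt_of_mem hT.pgroup hu)
  have h1 := CfsgLib.RankTwoClass.fact_le_of_le hle s
  rw [hT.card, (Fact.out : s.Prime).factorization_pow, Finsupp.single_eq_same] at h1
  omega

/-- `C(g)` has no noncentral `s`-elements. -/
def NoS (s : ℕ) (g : G) : Prop := ∀ u ∈ cen g, IsPElt s u → u ∈ Subgroup.center G

theorem noS_transfer [Fact s.Prime] {g g' : G} (he : (idx g').factorization s = (idx g).factorization s)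
    (h : NoS s g) : NoS s g' := by
  intro u hu hus
  by_contra huZ
  have h1 := center_fact_lt (center_le_cen g') hu hus huZ
  have h2 := card_fact_add g s
  have h3 := card_fact_add g' s
  obtain ⟨v, hv, hvs, hvZ⟩ := exists_noncentral_pElt (s := s) (K := cen g) (by omega)
  exact hvZ (h v hv hvs)

theorem cen_eq_of_idx {a b : G} (h : cen a ≤ cen b) (he : idx a = idx b) : cen a = cen b :=
  cen_eq_of_le_of_idx h he.le

/-- The class sizes are `1`, `n`, `m` and `n * m`. -/
structure Hyp (G : Type*) [Group G] (n m : ℕ) : Prop where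
  one_lt_n : 1 < n
  one_lt_m : 1 < m
  cop : n.Coprime m
  mem : ∀ g : G, idx g = 1 ∨ idx g = n ∨ idx g = m ∨ idx g = n * m
  exists_n : ∃ g : G, idx g = n
  exists_m : ∃ g : G, idx g = m
  exists_nm : ∃ g : G, idx g = n * m

variable {n m : ℕ} (H : Hyp G n m)
include H

omit [Finite G] in
theorem Hyp.symm : Hyp G m n where
  one_lt_n := H.one_lt_m
  one_lt_m := H.one_lt_n
  cop := H.cop.symm
  mem g := by rcases H.mem g with h | h | h | h <;> simp [h, mul_comm n m]
  exists_n := H.exists_m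
  exists_m := H.exists_n
  exists_nm := by rw [mul_comm]; exact H.exists_nm

theorem Hyp.not_center_n {g : G} (h : idx g = n) : g ∉ Subgroup.center G := fun hc => by
  have := (idx_eq_one_iff g).2 hc; have := H.one_lt_n; omega

theorem Hyp.not_center_m {g : G} (h : idx g = m) : g ∉ Subgroup.center G := H.symm.not_center_n h

theorem Hyp.not_center_nm {g : G} (h : idx g = n * m) : g ∉ Subgroup.center G := fun hc => by
  have h1 := (idx_eq_one_iff g).2 hc
  rw [h] at h1
  have := Nat.eq_one_of_mul_eq_one_right h1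
  have := H.one_lt_n; omega

omit [Finite G] in
theorem Hyp.n_ne_m : n ≠ m := fun e => by
  have h := H.cop; rw [e, Nat.coprime_self] at h; have := H.one_lt_m; omega

omit [Finite G] in
theorem Hyp.mem_of_dvd {g : G} (h : n ∣ idx g) : idx g = n ∨ idx g = n * m := by
  have := H.one_lt_n
  rcases H.mem g with e | e | e | e
  · rw [e, Nat.dvd_one] at h; omega
  · exact .inl e
  · rw [e] at h; have := Nat.eq_one_of_dvd_coprimes H.cop dvd_rfl h; omega
  · exact .inr e

omit [Finite G] in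
theorem Hyp.mem_of_dvd_n {g : G} (h : idx g ∣ n) : idx g = 1 ∨ idx g = n := by
  have := H.one_lt_m
  rcases H.mem g with e | e | e | e
  · exact .inl e
  · exact .inr e
  · rw [e] at h; have := Nat.eq_one_of_dvd_coprimes H.cop h dvd_rfl; omega
  · rw [e] at h; have := Nat.eq_one_of_dvd_coprimes H.cop ((dvd_mul_left m n).trans h) dvd_rfl; omega

theorem Hyp.cen_eq_n {x u : G} (hx : idx x = n) (hu : u ∉ Subgroup.center G) (h : cen x ≤ cen u) :
    idx u = n ∧ cen x = cen u := by
  rcases H.mem_of_dvd_n (hx ▸ idx_dvd_of_le h) with e | e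
  · exact absurd ((idx_eq_one_iff u).1 e) hu
  · exact ⟨e, cen_eq_of_idx h (hx.trans e.symm)⟩

theorem Hyp.exists_primary : ∃ t, ∃ x : G, t.Prime ∧ IsPElt t x ∧ idx x = n := by
  obtain ⟨g, hg⟩ := H.exists_n
  by_contra hno
  push Not at hno
  refine H.not_center_n hg (le_of_forall_pElt (K := Subgroup.zpowers g) (fun t ht v hv hvt => ?_)
    (Subgroup.mem_zpowers g))
  rcases H.mem_of_dvd_n (hg ▸ idx_dvd_of_le (cen_le_zpowers hv)) with e | e
  · exact (idx_eq_one_iff v).1 e
  · exact absurd e (hno t v ht hvt)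

omit [Finite G] in
theorem Hyp.fact_mul {s : ℕ} (hs : s.Prime) (hsn : s ∣ n) :
    m.factorization s = 0 ∧ (n * m).factorization s = n.factorization s := by
  have := H.one_lt_n; have := H.one_lt_m
  have h0 : m.factorization s = 0 := Nat.factorization_eq_zero_of_not_dvd fun h => hs.ne_one
    (Nat.eq_one_of_dvd_coprimes H.cop hsn h)
  refine ⟨h0, ?_⟩
  rw [Nat.factorization_mul (by omega) (by omega), Finsupp.add_apply, h0, add_zero]

omit [Finite G] in
theorem Hyp.not_dvd_m {s : ℕ} (hs : s.Prime) (hsn : s ∣ n) : ¬ s ∣ m := fun h =>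
  hs.ne_one (Nat.eq_one_of_dvd_coprimes H.cop hsn h)

/-- An `s`-element is central when `s` divides no class size. -/
theorem Hyp.central_of_not_dvd (hs : s.Prime) (h : ¬ s ∣ n * m) {u : G} (hu : IsPElt s u) :
    u ∈ Subgroup.center G := by
  haveI := Fact.mk hs
  obtain ⟨S⟩ : Nonempty (Sylow s G) := inferInstance
  have hnd : ∀ g : G, ¬ s ∣ idx g := fun g hd => h (by
    rcases H.mem g with e | e | e | e <;> rw [e] at hd
    · exact absurd (Nat.dvd_one.1 hd) hs.ne_one
    · exact hd.mul_right m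
    · exact hd.mul_left n
    · exact hd)
  have htop : Subgroup.centralizer ((S : Subgroup G) : Set G) = ⊤ := by
    refine CfsgLib.ClassSizes.eq_top_of_conj_cover _ fun g => ?_
    obtain ⟨T, hT⟩ := CfsgLib.ClassSizes.exists_sylow_le_of_not_dvd_index (cen g) (hnd g)
    obtain ⟨c, -, hc⟩ := (sylow_full S).exists_conj (sylow_full T)
    refine ⟨c⁻¹, Subgroup.mem_centralizer_iff.2 fun t ht => ?_⟩
    have h1 := hc (c⁻¹ * t * c)
    rw [show c * (c⁻¹ * t * c) * c⁻¹ = t by group] at h1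
    have h2 := conj_commute (mem_cen_iff_commute.1 (hT (h1.2 ht))) c
    rw [show c * (c⁻¹ * t * c) * c⁻¹ = t by group] at h2
    rw [inv_inv]
    exact h2.eq
  obtain ⟨c, hc⟩ := exists_conj_mem_sylow S hu
  have h1 : c * u * c⁻¹ ∈ Subgroup.center G := Subgroup.mem_center_iff.2 fun g => by
    have hg := Subgroup.mem_top g
    rw [← htop] at hg
    exact (Subgroup.mem_centralizer_iff.1 hg _ hc).symm
  simpa [mul_assoc] using conj_mem_center c⁻¹ h1

end CfsgLib.ClassSizeNM
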