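import Cfsg.Agent.ClassSizeNM.Setup
import Cfsg.Agent.Constrained.Fitting
import Cfsg.Agent.Cores.Bender
import Cfsg.Agent.Chars.Apps.Burnside
import Cfsg.Agent.TwoRegular.Struct

/-!
The case in which the class size `n` occurs only for `p`-elements and `m` only for `q`-elements is impossible.

First there are no `p`- or `q`-elements of class size `n * m`. Then the Fitting subgroup has noncentral Sylow
subgroups `U`, `V` whose centralisers act semiregularly, and this gives `m < n` and `n < m`.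
-/

set_option autoImplicit false

namespace CfsgLib.ClassSizeNM

open CfsgLib.TwoSizes (cen mem_cen IsPElt center_le_cen le_of_forall_pElt)
open CfsgLib.CoprimeLargest (idx idx_ne_zero idx_eq_one_iff idx_conj idx_dvd_of_le)
open CfsgLib.RankTwoClass (isPElt_conj isPElt_of_mem card_fact_add cen_mul_eq_inf exists_pPart)

/-- The crossed case. -/
structure Cross (G : Type*) [Group G] (n m p q : ℕ) : Prop extends Setup G n m p q where
  p_ne_m : ∀ w : G, IsPElt p w → idx w ≠ m
  q_ne_n : ∀ w : G, IsPElt q w → idx w ≠ n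
  exists_x : ∃ x : G, IsPElt p x ∧ idx x = n
  exists_y : ∃ y : G, IsPElt q y ∧ idx y = m

variable {G : Type*} [Group G] [Finite G] {n m p q : ℕ} (C : Cross G n m p q)
include C

omit [Finite G] in
theorem Cross.symm : Cross G m n q p :=
  ⟨C.toSetup.symm, C.q_ne_n, C.p_ne_m, C.exists_y, C.exists_x⟩

theorem Cross.p_cases {w : G} (hw : IsPElt p w) (hwZ : w ∉ Subgroup.center G) :
    idx w = n ∨ idx w = n * m := by
  rcases C.H.mem w with e | e | e | e
  · exact absurd ((idx_eq_one_iff w).1 e) hwZ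
  · exact .inl e
  · exact absurd e (C.p_ne_m w hw)
  · exact .inr e

theorem Cross.q_cases {w : G} (hw : IsPElt q w) (hwZ : w ∉ Subgroup.center G) :
    idx w = m ∨ idx w = n * m := by
  rcases C.symm.p_cases hw hwZ with e | e
  · exact .inl e
  · exact .inr (e.trans (mul_comm m n))

/-- Elements of class size `m` or `n * m` centralise noncentral `p`-elements. -/
theorem Cross.mix {g : G} (hg : idx g = m ∨ idx g = n * m) :
    ∃ u ∈ cen g, IsPElt p u ∧ u ∉ Subgroup.center G := by
  haveI := Fact.mk C.hp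
  haveI := Fact.mk C.hq
  by_contra hno
  push Not at hno
  have hall : ∀ g' : G, idx g' = m ∨ idx g' = n * m → NoS p g' := fun g' hg' =>
    noS_transfer (by rw [C.toSetup.fact_p hg', C.toSetup.fact_p hg]) hno
  obtain ⟨x, hxp, hx⟩ := C.exists_x
  have hxq : NoS q x := by
    intro v hv hvq
    by_contra hvZ
    exact C.H.not_center_n hx (hall v (C.q_cases hvq hvZ) x
      (mem_cen_iff_commute.2 (mem_cen_iff_commute.1 hv).symm) hxp)
  obtain ⟨g₀, hg₀⟩ := C.H.exists_nm
  obtain ⟨a, b, ha, hb, hab, hap, hbp, -⟩ := exists_pPart (s := p) g₀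
  obtain ⟨b₁, b₂, hb₁, hb₂, hbb, hb₁q, hb₂q, -⟩ := exists_pPart (s := q) b
  refine C.H.not_center_nm hg₀ ?_
  rw [hab, hbb]
  refine mul_mem (hall g₀ (.inr hg₀) a (zpowers_le_cen ha) hap) (mul_mem
    (noS_transfer (g := x) (g' := g₀) ?_ hxq b₁ (zpowers_le_cen ((Subgroup.zpowers_le.2 hb) hb₁)) hb₁q)
    (C.toSetup.central_coprime (hbp.coprime_dvd_left (orderOf_dvd_of_mem_zpowers hb₂)) hb₂q))
  rw [C.toSetup.fact_q (.inr hg₀), C.toSetup.fact_q (.inl hx)]

/-- The centraliser of a `q`-element of class size `n * m` lies in that of each `p`-element in it. -/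
theorem Cross.cen_le_of_nm {v : G} (hvq : IsPElt q v) (hv : idx v = n * m) {h : G} (hh : h ∈ cen v)
    (hhp : IsPElt p h) (hhZ : h ∉ Subgroup.center G) : cen v ≤ cen h := by
  have hc : Commute h v := mem_cen_iff_commute.1 hh
  have hinf := cen_mul_eq_inf hc (CfsgLib.TwoSizes.isPElt_coprime C.hp C.hq C.toSetup.ne hhp hvq)
  have h1 : n * m ∣ idx (h * v) := hv ▸ idx_dvd_of_le (hinf ▸ inf_le_right)
  have h2 : idx (h * v) = n * m := (C.H.mem_of_dvd ((dvd_mul_right n m).trans h1)).resolve_left fun e => by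
    rw [e] at h1
    have := Nat.le_of_dvd (Nat.lt_of_succ_lt C.H.one_lt_n) h1
    have := C.H.one_lt_n; have := C.H.one_lt_m
    nlinarith
  rw [← cen_eq_of_idx (hinf ▸ inf_le_right : cen (h * v) ≤ cen v) (h2.trans hv.symm), hinf]
  exact inf_le_left

/-- An element of class size `n` does not commute with all `q`-elements of class size `m`. -/
theorem Cross.not_all_commute {x : G} (hxp : IsPElt p x) (hx : idx x = n)
    (h : ∀ y : G, IsPElt q y → idx y = m → Commute x y) : False := by
  haveI := Fact.mk C.hp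
  haveI := Fact.mk C.hq
  obtain ⟨Q⟩ : Nonempty (Sylow q G) := inferInstance
  obtain ⟨y₀, hy₀q, hy₀⟩ := C.exists_y
  obtain ⟨c, hcQ, hcc⟩ := exists_conj_central_sylow Q hy₀q (show ¬ q ∣ idx y₀ by rw [hy₀]; exact C.toSetup.not_q_m)
  set y := c * y₀ * c⁻¹ with hy_def
  have hy : idx y = m := by rw [hy_def, idx_conj]; exact hy₀
  refine C.toSetup.cover_contra hx Q fun v hv => ?_
  by_cases hvZ : v ∈ Subgroup.center G
  · exact ⟨1, ((Subgroup.mem_center_iff.1 hvZ _).symm : v * _ = _ * v)⟩
  have hvq := isPElt_of_mem Q.isPGroup' hv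
  rcases C.q_cases hvq hvZ with e | e
  · exact ⟨1, by simpa using (h v hvq e).symm⟩
  · have hyv : y ∈ cen v := mem_cen_iff_commute.2 (hcc v hv).symm
    obtain ⟨T, hT⟩ := exists_full (s := p) (cen v)
    have hTy : T ≤ cen y := by
      intro t ht
      by_cases htZ : t ∈ Subgroup.center G
      · exact center_le_cen y htZ
      · exact mem_cen_iff_commute.2 (mem_cen_iff_commute.1
          (C.cen_le_of_nm hvq e (hT.le ht) (isPElt_of_mem hT.pgroup ht) htZ hyv)).symm
    have hTy' : Full p (cen y) T := ⟨hTy, hT.pgroup, by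
      have h1 := card_fact_add v p
      have h2 := card_fact_add y p
      have h3 := C.toSetup.fact_p (g := v) (.inr e)
      have h4 := C.toSetup.fact_p (g := y) (.inl hy)
      rw [hT.card]; congr 1; omega⟩
    obtain ⟨P, hP, hTP⟩ := Full.exists_le (K := (⊤ : Subgroup G)) hT.pgroup le_top
    obtain ⟨g, hgP, hgc⟩ := exists_conj_central_sylow (Sylow.ofCard P (by
      rw [hP.card, Subgroup.card_top])) hxp (show ¬ p ∣ idx x by rw [hx]; exact C.toSetup.not_p_n)
    refine ⟨g, ?_⟩
    have hxy : g * x * g⁻¹ ∈ cen y := by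
      refine mem_cen_iff_commute.2 ?_
      have h1 := conj_commute (h (g⁻¹ * y * g⁻¹⁻¹) (isPElt_conj (isPElt_conj hy₀q c) g⁻¹)
        (by rw [idx_conj]; exact hy)) g
      rwa [show g * (g⁻¹ * y * g⁻¹⁻¹) * g⁻¹ = y by group] at h1
    have h2 := hTy'.mem_of_normalizes hxy (isPElt_conj hxp g)
      (mem_normalizer_of_commute fun t ht => (hgc t (hTP ht)).symm)
    exact (mem_cen_iff_commute.1 (hT.le h2)).symm

/-- No `q`-element has class size `n * m`. -/
theorem Cross.q_not_nm {v : G} (hvq : IsPElt q v) : idx v ≠ n * m := by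
  intro hv
  haveI := Fact.mk C.hp
  haveI := Fact.mk C.hq
  have hfalse : ∀ h ∈ cen v, IsPElt p h → idx h = n → False := by
    intro h hh hhp hhn
    refine C.not_all_commute hhp hhn fun y hyq hy => ?_
    obtain ⟨Q, hQ, hvQ⟩ := Full.exists_le (K := (⊤ : Subgroup G))
      (CfsgLib.RankTwoClass.isPGroup_zpowers hvq) le_top
    obtain ⟨g, hgQ, hgc⟩ := exists_conj_central_sylow (Sylow.ofCard Q (by
      rw [hQ.card, Subgroup.card_top])) hyq (show ¬ q ∣ idx y by rw [hy]; exact C.toSetup.not_q_m)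
    have hy'v : g * y * g⁻¹ ∈ cen v :=
      mem_cen_iff_commute.2 (hgc v (hvQ (Subgroup.mem_zpowers v))).symm
    have hy'h : Commute h (g * y * g⁻¹) :=
      (mem_cen_iff_commute.1 (C.cen_le_of_nm hvq hv hh hhp (C.H.not_center_n hhn) hy'v)).symm
    have hcop : (cen h).index.Coprime (cen (g * y * g⁻¹)).index := by
      show (idx h).Coprime (idx (g * y * g⁻¹))
      rw [hhn, idx_conj, hy]; exact C.H.cop
    obtain ⟨a, ha, b, hb, hab⟩ := CfsgLib.Product.exists_mul_of_coprime_index hcop g⁻¹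
    have e : y = a * (g * y * g⁻¹) * a⁻¹ := by
      calc y = g⁻¹ * (g * y * g⁻¹) * g⁻¹⁻¹ := by group
        _ = a * (b * (g * y * g⁻¹)) * b⁻¹ * a⁻¹ := by rw [hab]; group
        _ = a * ((g * y * g⁻¹) * b) * b⁻¹ * a⁻¹ := by rw [mem_cen.1 hb]
        _ = _ := by group
    have h1 := conj_commute hy'h a
    rwa [← e, show a * h * a⁻¹ = h by rw [mem_cen.1 ha, mul_inv_cancel_right]] at h1
  obtain ⟨h, hh, hhp, hhZ⟩ := C.mix (.inr hv)
  rcases C.p_cases hhp hhZ with e | e
  · exact hfalse h hh hhp e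
  · obtain ⟨x, hxp, hx⟩ := C.exists_x
    obtain ⟨P, hP, hhP⟩ := Full.exists_le (K := (⊤ : Subgroup G))
      (CfsgLib.RankTwoClass.isPGroup_zpowers hhp) le_top
    obtain ⟨g, hgP, hgc⟩ := exists_conj_central_sylow (Sylow.ofCard P (by
      rw [hP.card, Subgroup.card_top])) hxp (show ¬ p ∣ idx x by rw [hx]; exact C.toSetup.not_p_n)
    have heq := cen_eq_of_idx (C.cen_le_of_nm hvq hv hh hhp hhZ) (hv.trans e.symm)
    refine hfalse (g * x * g⁻¹) ?_ (isPElt_conj hxp g) (by rw [idx_conj]; exact hx)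
    rw [heq]
    exact mem_cen_iff_commute.2 (hgc h (hhP (Subgroup.mem_zpowers h))).symm

theorem Cross.all_m {w : G} (hw : IsPElt q w) (hwZ : w ∉ Subgroup.center G) : idx w = m :=
  (C.q_cases hw hwZ).resolve_right (C.q_not_nm hw)

theorem Cross.all_n {w : G} (hw : IsPElt p w) (hwZ : w ∉ Subgroup.center G) : idx w = n :=
  C.symm.all_m hw hwZ

/-- All `q`-elements centralise `O_q(G)`. -/
theorem Cross.commute_core [Fact q.Prime] {w : G} (hw : IsPElt q w) {v : G} (hv : v ∈ Cfsg.pCore q G) :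
    Commute v w := by
  by_cases hwZ : w ∈ Subgroup.center G
  · exact (Subgroup.mem_center_iff.1 hwZ v : v * w = w * v)
  obtain ⟨Q, hQ⟩ := CfsgLib.ClassSizes.exists_sylow_le_of_not_dvd_index (cen w)
    (show ¬ q ∣ idx w by rw [C.all_m hw hwZ]; exact C.toSetup.not_q_m)
  exact mem_cen_iff_commute.1 (hQ ((sylow_full Q).normal_le CfsgLib.Constrained.isPGroup_pCore
    ⟨hv, Subgroup.mem_top v⟩))

/-- A `p`-element centralising `O_q(G)` lies in `O_p(G)`. -/
theorem Cross.mem_core {a : G} (ha : IsPElt p a) (h : ∀ v ∈ Cfsg.pCore q G, Commute v a) :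
    a ∈ Cfsg.pCore p G := by
  haveI := Fact.mk C.hp
  haveI := Fact.mk C.hq
  have hsol : Group.IsSolvable G := by
    haveI hQs : Group.IsSolvable (G ⧸ Subgroup.center G) := by
      have hsub : ∀ s : ℕ, s.Prime → s ∣ (Subgroup.center G).index → s = p ∨ s = q := by
        intro s hs hd
        by_contra hne
        push Not at hne
        haveI := Fact.mk hs
        obtain ⟨T⟩ : Nonempty (Sylow s G) := inferInstance
        refine T.not_dvd_index (hd.trans (Subgroup.index_dvd_of_le fun t ht => ?_))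
        exact C.toSetup.central hs hne.1 hne.2 (isPElt_of_mem T.isPGroup' ht)
      exact CfsgLib.Chars.Apps.isSolvable_of_primeFactors_subset (G ⧸ Subgroup.center G) C.hp C.hq
        fun s hs hd => hsub s hs hd
    haveI : Group.IsSolvable (Subgroup.center G) := Group.isSolvable_of_comm fun a b => Subtype.ext (Subgroup.mem_center_iff.1 b.2 a)
    exact Group.isSolvable_of_ker_le_range (Subgroup.center G).subtype
      (QuotientGroup.mk' (Subgroup.center G)) (by rw [QuotientGroup.ker_mk', Subgroup.range_subtype])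
  haveI := hsol
  refine CfsgLib.Cores.le_pCore_of_centralizes CfsgLib.Constrained.centralizer_fitting_le
    (CfsgLib.RankTwoClass.isPGroup_zpowers ha) (fun s hs b hb u hu => ?_) (Subgroup.mem_zpowers a)
  obtain ⟨i, rfl⟩ := Subgroup.mem_zpowers_iff.1 hb
  refine (Commute.zpow_left ?_ i).eq
  haveI := Fact.mk hs
  by_cases hsq : s = q
  · subst hsq; exact (h u hu).symm
  by_cases hsp : s = p
  · subst hsp; exact (C.symm.commute_core ha hu).symm
  exact (Subgroup.mem_center_iff.1 (C.toSetup.central hs hsp hsq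
    (isPElt_of_mem CfsgLib.Constrained.isPGroup_pCore hu)) a : a * u = u * a)

/-- Modulo `C(O_q(G))` the group is abelian. -/
theorem Cross.comm_mod [Fact q.Prime] (g k : G) :
    g⁻¹ * k⁻¹ * g * k ∈ Subgroup.centralizer (Cfsg.pCore q G : Set G) := by
  classical
  haveI := Fact.mk C.hp
  haveI : (Cfsg.pCore q G).Normal := inferInstance
  set W := Subgroup.centralizer (Cfsg.pCore q G : Set G) with hW
  haveI : W.Normal := inferInstance
  set π := QuotientGroup.mk' W with hπ
  have hrep : ∀ g : G, ∃ a : G, IsPElt p a ∧ π g = π a := by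
    intro g
    obtain ⟨a, b, ha, hb, hab, hap, hbp, -⟩ := exists_pPart (s := p) g
    obtain ⟨b₁, b₂, hb₁, hb₂, hbb, hb₁q, hb₂q, -⟩ := exists_pPart (s := q) b
    have hz : b₂ ∈ Subgroup.center G :=
      C.toSetup.central_coprime (hbp.coprime_dvd_left (orderOf_dvd_of_mem_zpowers hb₂)) hb₂q
    have hbW : b ∈ W := by
      rw [hbb]
      exact mul_mem (Subgroup.mem_centralizer_iff.2 fun v hv => (C.commute_core hb₁q hv).eq)
        (Subgroup.mem_centralizer_iff.2 fun v _ => Subgroup.mem_center_iff.1 hz v)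
    exact ⟨a, hap, by rw [hab, map_mul, show π b = 1 from (QuotientGroup.eq_one_iff b).2 hbW, mul_one]⟩
  have hcentral : ∀ a : G, IsPElt p a → ∀ k : G, Commute (π k) (π a) := by
    intro a ha
    by_cases haZ : a ∈ Subgroup.center G
    · intro k; exact (show Commute k a from Subgroup.mem_center_iff.1 haZ k).map π
    obtain ⟨P, hP⟩ := CfsgLib.ClassSizes.exists_sylow_le_of_not_dvd_index (cen a)
      (show ¬ p ∣ idx a by rw [C.all_n ha haZ]; exact C.toSetup.not_p_n)
    have htop : Subgroup.centralizer ({π a} : Set (G ⧸ W)) = ⊤ := by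
      refine CfsgLib.ClassSizes.eq_top_of_conj_cover _ fun k => ?_
      obtain ⟨k, rfl⟩ := QuotientGroup.mk'_surjective W k
      obtain ⟨b, hb, hkb⟩ := hrep k
      obtain ⟨c, hc⟩ := exists_conj_mem_sylow P hb
      refine ⟨π c⁻¹, Subgroup.mem_centralizer_singleton_iff.2 ?_⟩
      rw [hkb, ← map_inv, inv_inv, ← map_mul, ← map_mul, ← map_mul, ← map_mul]
      exact congrArg π (mem_cen.1 (hP hc))
    intro k
    exact Subgroup.mem_centralizer_singleton_iff.1 (htop ▸ Subgroup.mem_top (π k) : π k ∈ Subgroup.centralizer ({π a} : Set (G ⧸ W)))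
  obtain ⟨a, ha, hga⟩ := hrep g
  rw [← QuotientGroup.eq_one_iff]
  show π (g⁻¹ * k⁻¹ * g * k) = 1
  rw [map_mul, map_mul, map_mul, map_inv, map_inv, hga]
  rw [show (π a)⁻¹ * (π k)⁻¹ * π a * π k = (π k * π a)⁻¹ * (π a * π k) by group, (hcentral a ha k).eq,
    inv_mul_cancel]

end CfsgLib.ClassSizeNM
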