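import Cfsg.Agent.ClassSizeNM.Setup

/-!
If there is a `q`-element `x` of class size `n` and no `p`-element has class size `n`, then the conjugates
of `x` lie in one Sylow `q`-subgroup, all `p`-elements centralise them, and the Sylow `p`-subgroup is normal.
-/

set_option autoImplicit false

namespace CfsgLib.ClassSizeNM

open CfsgLib.TwoSizes (cen mem_cen IsPElt center_le_cen le_of_forall_pElt)
open CfsgLib.CoprimeLargest (idx idx_ne_zero idx_eq_one_iff idx_conj idx_dvd_of_le)
open CfsgLib.RankTwoClass (isPElt_conj isPElt_of_mem card_fact_add cen_mul_eq_inf exists_pPart)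

variable {G : Type*} [Group G] [Finite G]

/-- An element of coprime order acting on a normal `q`-group is trivial on it if it centralises the
centraliser of an element it fixes. -/
theorem commute_normal_of_centralizer {q : ℕ} [Fact q.Prime] {N : Subgroup G} [N.Normal]
    (hN : IsPGroup q N) {x w : G} (hx : x ∈ N) (hwq : (orderOf w).Coprime q) (hwx : Commute w x)
    (h : ∀ v ∈ N, Commute v x → Commute v w) : ∀ v ∈ N, Commute v w := by
  haveI : Group.IsNilpotent N := hN.isNilpotent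
  suffices htop : (cen w).subgroupOf N = ⊤ from fun v hv =>
    mem_cen_iff_commute.1 (Subgroup.subgroupOf_eq_top.1 htop hv)
  by_contra hne
  obtain ⟨⟨g, hg⟩, hgn, hgD⟩ := SetLike.exists_of_lt
    (normalizerCondition_of_isNilpotent _ (lt_top_iff_ne_top.2 hne))
  refine hgD ?_
  rw [Subgroup.mem_subgroupOf]
  have hxD : (⟨x, hx⟩ : N) ∈ (cen w).subgroupOf N := by
    rw [Subgroup.mem_subgroupOf]; exact mem_cen_iff_commute.2 hwx.symm
  have h1 : g * x * g⁻¹ ∈ cen w := by
    have := (Subgroup.mem_normalizer_iff.1 hgn ⟨x, hx⟩).1 hxD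
    rwa [Subgroup.mem_subgroupOf] at this
  have h2 : Commute (g⁻¹ * w * g) x := by
    have := conj_commute (mem_cen_iff_commute.1 h1).symm g⁻¹
    rwa [show g⁻¹ * (g * x * g⁻¹) * g⁻¹⁻¹ = x by group, inv_inv] at this
  set d := g⁻¹ * w * g * w⁻¹ with hd
  have hdN : d ∈ N := by
    rw [hd, mul_assoc, mul_assoc]
    refine N.mul_mem (N.inv_mem hg) ?_
    rw [← mul_assoc]
    exact (inferInstance : N.Normal).conj_mem g hg w
  have hdw : Commute d w := h d hdN (h2.mul_left hwx.inv_left)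
  have hd1 : d ^ orderOf w = 1 := by
    have e : d * w = g⁻¹ * w * g⁻¹⁻¹ := by rw [hd]; group
    have h3 : (d * w) ^ orderOf w = 1 := by rw [e, conj_pow, pow_orderOf_eq_one]; group
    rwa [hdw.mul_pow, pow_orderOf_eq_one, mul_one] at h3
  have hd0 : d = 1 := CfsgLib.RankTwoClass.eq_one_of_pElt_coprime Fact.out (isPElt_of_mem hN hdN)
    (hwq.coprime_dvd_left (orderOf_dvd_of_pow_eq_one hd1))
  refine mem_cen.2 ?_
  calc g * w = g * (g⁻¹ * w * g * w⁻¹)⁻¹ * (g⁻¹ * w * g) := by group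
    _ = w * g := by rw [← hd, hd0]; group

variable {n m p q : ℕ} (S : Setup G n m p q)
include S

/-- All `p`-elements centralise a `q`-element of class size `n`. -/
theorem Setup.pure_le {x : G} (hxq : IsPElt q x) (hx : idx x = n)
    (hP : ∀ w : G, IsPElt p w → idx w ≠ n) {w : G} (hwp : IsPElt p w) : w ∈ cen x := by
  haveI := Fact.mk S.hp
  haveI := Fact.mk S.hq
  obtain ⟨Q, hQ, hxQ⟩ := Full.exists_le (K := (⊤ : Subgroup G))
    (CfsgLib.RankTwoClass.isPGroup_zpowers hxq) le_top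
  have hcop : Q.index.Coprime (cen x).index := by
    show Q.index.Coprime (idx x)
    rw [hx, S.n_eq]
    refine Nat.Coprime.pow_right _ (S.hq.coprime_iff_not_dvd.2 ?_).symm
    exact (Sylow.ofCard Q (by rw [hQ.card, Subgroup.card_top])).not_dvd_index
  have hconj : Subgroup.normalClosure {x} ≤ Q := by
    show Subgroup.closure (Group.conjugatesOfSet {x}) ≤ Q
    rw [Subgroup.closure_le]
    intro v hv
    obtain ⟨u, hu, hv'⟩ := Group.mem_conjugatesOfSet_iff.1 hv
    rw [Set.mem_singleton_iff.1 hu] at hv'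
    obtain ⟨g, rfl⟩ := isConj_iff.1 hv'
    obtain ⟨a, ha, b, hb, rfl⟩ := CfsgLib.Product.exists_mul_of_coprime_index hcop g
    rw [show a * b * x * (a * b)⁻¹ = a * (b * x * b⁻¹) * a⁻¹ by group, mem_cen.1 hb, mul_inv_cancel_right]
    exact Q.mul_mem (Q.mul_mem ha (hxQ (Subgroup.mem_zpowers x))) (Q.inv_mem ha)
  set N := Subgroup.normalClosure {x} with hNdef
  haveI : N.Normal := Subgroup.normalClosure_normal
  have hN : IsPGroup q N := hQ.pgroup.to_le hconj
  have hxN : x ∈ N := Subgroup.subset_normalClosure (Set.mem_singleton x)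
  refine mem_cen.2 (Commute.symm ?_).eq
  rcases S.H.mem w with e | e | e | e
  · exact (Subgroup.mem_center_iff.1 ((idx_eq_one_iff w).1 e) x : x * w = w * x)
  · exact absurd e (hP w hwp)
  · obtain ⟨Q', hQ'⟩ := CfsgLib.ClassSizes.exists_sylow_le_of_not_dvd_index (cen w)
      (show ¬ q ∣ idx w by rw [e]; exact S.not_q_m)
    exact mem_cen_iff_commute.1 (hQ' ((sylow_full Q').normal_le hN ⟨hxN, Subgroup.mem_top x⟩))
  · obtain ⟨c, hc⟩ := exists_conj_mem_of_not_dvd (x := x) (show ¬ p ∣ idx x by rw [hx]; exact S.not_p_n) hwp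
    set x₁ := c⁻¹ * x * c⁻¹⁻¹ with hx₁
    have hx₁N : x₁ ∈ N := (inferInstance : N.Normal).conj_mem x hxN c⁻¹
    have hwx₁ : Commute w x₁ := by
      have := conj_commute (mem_cen_iff_commute.1 hc) c⁻¹
      rwa [show c⁻¹ * (c * w * c⁻¹) * c⁻¹⁻¹ = w by group] at this
    have hx₁n : idx x₁ = n := by rw [hx₁, idx_conj]; exact hx
    have hcp : (orderOf w).Coprime (orderOf x₁) :=
      CfsgLib.TwoSizes.isPElt_coprime S.hp S.hq S.ne hwp (isPElt_conj hxq c⁻¹)
    have hinf := cen_mul_eq_inf hwx₁ hcp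
    have hidx : idx (w * x₁) = n * m :=
      (S.H.mem_of_dvd (g := w * x₁) (hx₁n ▸ idx_dvd_of_le (hinf ▸ inf_le_right))).resolve_left fun h => by
        have h1 : idx w ∣ idx (w * x₁) := idx_dvd_of_le (hinf ▸ inf_le_left)
        rw [e, h] at h1
        have h2 := Nat.le_of_dvd (Nat.lt_of_succ_lt S.H.one_lt_n) h1
        have := S.H.one_lt_n; have := S.H.one_lt_m
        nlinarith
    have hle : cen w ≤ cen x₁ := by
      rw [← cen_eq_of_idx (hinf ▸ inf_le_left : cen (w * x₁) ≤ cen w) (hidx.trans e.symm), hinf]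
      exact inf_le_right
    obtain ⟨R, hR⟩ := exists_full (s := q) (cen w)
    have hR' : Full q (cen x₁) R := hR.of_fact hle (by
      have h1 := card_fact_add w q
      have h2 := card_fact_add x₁ q
      have h3 := S.fact_q (g := w) (.inr e)
      have h4 := S.fact_q (g := x₁) (.inl hx₁n)
      omega)
    refine commute_normal_of_centralizer hN hx₁N
      (CfsgLib.RankTwoClass.coprime_of_pElt S.hq S.hp S.ne hwp) hwx₁
      (fun v hv hvx => mem_cen_iff_commute.1 (hR.le (hR'.normal_le hN ⟨hv, mem_cen_iff_commute.2 hvx⟩)))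
      x hxN

/-- In the pure case the Sylow `p`-subgroup is normal. -/
theorem Setup.pure_normal {x : G} (hxq : IsPElt q x) (hx : idx x = n)
    (hP : ∀ w : G, IsPElt p w → idx w ≠ n) [Fact p.Prime] (P : Sylow p G) :
    (P : Subgroup G).Normal := by
  haveI := Fact.mk S.hq
  have hpK : ∀ w : G, IsPElt p w → w ∈ cen x := fun w hw => S.pure_le hxq hx hP hw
  have hmemK : ∀ {g v : G}, g ∈ cen x → v ∈ Subgroup.zpowers g → v ∈ cen x := fun {g v} hg hv =>
    Subgroup.zpowers_le.2 hg hv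
  have hdec : ∀ g : G, ∃ a b₁ b₂ : G, g = a * (b₁ * b₂) ∧ IsPElt p a ∧ IsPElt q b₁ ∧
      b₂ ∈ Subgroup.center G ∧ a ∈ Subgroup.zpowers g ∧ b₁ ∈ Subgroup.zpowers g := by
    intro g
    obtain ⟨a, b, ha, hb, hab, hap, hbp, -⟩ := exists_pPart (s := p) g
    obtain ⟨b₁, b₂, hb₁, hb₂, hbb, hb₁q, hb₂q, -⟩ := exists_pPart (s := q) b
    exact ⟨a, b₁, b₂, by rw [hab, hbb], hap, hb₁q, S.central_coprime
      (hbp.coprime_dvd_left (orderOf_dvd_of_mem_zpowers hb₂)) hb₂q, ha,
      (Subgroup.zpowers_le.2 hb) hb₁⟩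
  have hcentral : ∀ {z : G} (T : Subgroup G), z ∈ Subgroup.center G → z ∈ Subgroup.normalizer (T : Set G) :=
    fun {z} T hz => mem_normalizer_of_commute fun t _ =>
      ((Subgroup.mem_center_iff.1 hz t).symm : z * t = t * z)
  -- `p`-elements and `q`-elements of `C(x)` commute
  obtain ⟨R, hR⟩ := exists_full (s := q) (cen x)
  have hlocal : ∀ {a : G}, IsPElt p a →
      (Nat.card (cen a ⊓ cen x : Subgroup G)).factorization q = (Nat.card (cen x)).factorization q := by
    intro a hap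
    have hax : Commute a x := mem_cen_iff_commute.1 (hpK a hap)
    have hinf := cen_mul_eq_inf hax (CfsgLib.TwoSizes.isPElt_coprime S.hp S.hq S.ne hap hxq)
    have h := S.H.mem_of_dvd (g := a * x) (hx ▸ idx_dvd_of_le (hinf ▸ inf_le_right))
    rw [← hinf]
    have h1 := card_fact_add (a * x) q
    have h2 := card_fact_add x q
    have h3 := S.fact_q h
    have h4 := S.fact_q (g := x) (.inl hx)
    omega
  have hcov : ∀ g ∈ cen x, ∃ T', Full q (cen x) T' ∧ g ∈ Subgroup.normalizer (T' : Set G) := by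
    intro g hg
    obtain ⟨a, b₁, b₂, he, hap, hb₁q, hb₂, ha, hb₁⟩ := hdec g
    have hb₁a : b₁ ∈ cen a ⊓ cen x :=
      ⟨cen_le_zpowers ha (zpowers_le_cen hb₁), hmemK hg hb₁⟩
    obtain ⟨T, hT, hbT⟩ := Full.exists_le (CfsgLib.RankTwoClass.isPGroup_zpowers hb₁q)
      (Subgroup.zpowers_le.2 hb₁a)
    refine ⟨T, hT.of_fact inf_le_right (hlocal hap), ?_⟩
    rw [he]
    refine mul_mem (mem_normalizer_of_commute fun t ht => (mem_cen_iff_commute.1 (hT.le ht).1).symm) (mul_mem
      (Subgroup.le_normalizer (hbT (Subgroup.mem_zpowers b₁))) (hcentral T hb₂))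
  have hRall := (hR.mem_of_cover hcov).1
  have hcomm : ∀ {a b : G}, IsPElt p a → b ∈ cen x → IsPElt q b → Commute b a := by
    intro a b hap hb hbq
    obtain ⟨T, hT⟩ := exists_full (s := q) (cen a ⊓ cen x)
    have hTR : T = R := (hT.of_fact inf_le_right (hlocal hap)).eq_of_le hR.pgroup hR.le fun t ht =>
      hRall t (hT.le ht).2 (isPElt_of_mem hT.pgroup ht)
    exact mem_cen_iff_commute.1 (hT.le (hTR ▸ hRall b hb hbq)).1
  -- the `p`-elements form a subgroup
  obtain ⟨P₀, hP₀⟩ := exists_full (s := p) (cen x)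
  have hall : ∀ w : G, IsPElt p w → w ∈ P₀ := by
    intro w hw
    refine (hP₀.mem_of_cover fun g hg => ?_).1 w (hpK w hw) hw
    obtain ⟨a, b₁, b₂, he, hap, hb₁q, hb₂, ha, hb₁⟩ := hdec g
    obtain ⟨T, hT, haT⟩ := Full.exists_le (CfsgLib.RankTwoClass.isPGroup_zpowers hap)
      (Subgroup.zpowers_le.2 (hpK a hap))
    refine ⟨T, hT, ?_⟩
    rw [he]
    refine mul_mem (Subgroup.le_normalizer (haT (Subgroup.mem_zpowers a))) (mul_mem
      (mem_normalizer_of_commute fun t ht => hcomm (isPElt_of_mem hT.pgroup ht) (hmemK hg hb₁) hb₁q)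
      (hcentral T hb₂))
  have hPle : (P : Subgroup G) ≤ P₀ := fun w hw => hall w (isPElt_of_mem P.isPGroup' hw)
  have hPeq := P.is_maximal' hP₀.pgroup hPle
  refine ⟨fun v hv g => ?_⟩
  rw [← hPeq]
  exact hall _ (isPElt_conj (isPElt_of_mem P.isPGroup' hv) g)

end CfsgLib.ClassSizeNM
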