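import Cfsg.Agent.ClassSizeNM.Basic

/-!
Class sizes `1`, `n`, `m`, `n * m` with `m` a power of `p` and `n` a power of `q`.

The basic tool: if every element of a Sylow `q`-subgroup commutes with a conjugate of an element `x` of class
size `n`, then that subgroup is covered by the conjugates of `C(x)` meeting it, so `q` does not divide `n`.
Consequently `p`-elements cannot have both the class size `n` and the class size `m`.
-/

set_option autoImplicit false

namespace CfsgLib.ClassSizeNM

open CfsgLib.TwoSizes (cen mem_cen IsPElt center_le_cen le_of_forall_pElt)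
open CfsgLib.CoprimeLargest (idx idx_ne_zero idx_eq_one_iff idx_conj idx_dvd_of_le)
open CfsgLib.RankTwoClass (isPElt_conj isPElt_of_mem card_fact_add cen_mul_eq_inf)

/-- The class sizes are `1`, `n`, `m`, `n * m` with `m` a power of `p` and `n` a power of `q`. -/
structure Setup (G : Type*) [Group G] (n m p q : ℕ) : Prop where
  H : Hyp G n m
  hp : p.Prime
  hq : q.Prime
  pm : p ∣ m
  qn : q ∣ n
  m_only : ∀ s : ℕ, s.Prime → s ∣ m → s = p
  n_only : ∀ s : ℕ, s.Prime → s ∣ n → s = q

variable {G : Type*} [Group G] [Finite G] {n m p q : ℕ} (S : Setup G n m p q)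
include S

omit [Finite G] in
theorem Setup.symm : Setup G m n q p :=
  ⟨S.H.symm, S.hq, S.hp, S.qn, S.pm, S.n_only, S.m_only⟩

omit [Finite G] in
theorem Setup.not_p_n : ¬ p ∣ n := S.H.symm.not_dvd_m S.hp S.pm

omit [Finite G] in
theorem Setup.not_q_m : ¬ q ∣ m := S.H.not_dvd_m S.hq S.qn

omit [Finite G] in
theorem Setup.ne : p ≠ q := fun h => S.not_p_n (h ▸ S.qn)

theorem Setup.central {s : ℕ} (hs : s.Prime) (hsp : s ≠ p) (hsq : s ≠ q) {u : G} (hu : IsPElt s u) :
    u ∈ Subgroup.center G :=
  S.H.central_of_not_dvd hs (fun h => (hs.dvd_mul.1 h).elim (fun h' => hsq (S.n_only s hs h'))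
    fun h' => hsp (S.m_only s hs h')) hu

theorem Setup.central_coprime {b : G} (hp : (orderOf b).Coprime p) (hq : (orderOf b).Coprime q) :
    b ∈ Subgroup.center G := by
  refine le_of_forall_pElt (K := Subgroup.zpowers b) (fun s hs v hv hvs => ?_) (Subgroup.mem_zpowers b)
  by_cases hsp : s = p
  · subst hsp
    rw [CfsgLib.RankTwoClass.eq_one_of_pElt_coprime hs hvs
      (hp.coprime_dvd_left (orderOf_dvd_of_mem_zpowers hv))]
    exact one_mem _
  by_cases hsq : s = q
  · subst hsq
    rw [CfsgLib.RankTwoClass.eq_one_of_pElt_coprime hs hvs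
      (hq.coprime_dvd_left (orderOf_dvd_of_mem_zpowers hv))]
    exact one_mem _
  exact S.central hs hsp hsq hvs

omit [Finite G] in
theorem Setup.n_eq : n = q ^ n.factorization q := by
  have h1 := S.H.one_lt_n
  have h : n = q ^ n.primeFactorsList.length :=
    Nat.eq_prime_pow_of_unique_prime_dvd (by omega) fun {d} hd hdn => S.n_only d hd hdn
  conv_rhs => rw [h, S.hq.factorization_pow, Finsupp.single_eq_same]
  exact h

omit [Finite G] in
theorem Setup.fact_p {g : G} (h : idx g = m ∨ idx g = n * m) :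
    (idx g).factorization p = m.factorization p := by
  rcases h with h | h
  · rw [h]
  · rw [h, mul_comm, (S.H.symm.fact_mul S.hp S.pm).2]

omit [Finite G] in
theorem Setup.fact_q {g : G} (h : idx g = n ∨ idx g = n * m) :
    (idx g).factorization q = n.factorization q := by
  rcases h with h | h
  · rw [h]
  · rw [h, (S.H.fact_mul S.hq S.qn).2]

omit [Finite G] in
theorem Setup.mem_of_dvd_m {g : G} (h : m ∣ idx g) : idx g = m ∨ idx g = n * m := by
  rcases S.H.symm.mem_of_dvd h with e | e
  · exact .inl e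
  · exact .inr (e.trans (mul_comm m n))

/-- If every element of a Sylow `q`-subgroup commutes with a conjugate of `x`, the class size of `x` is
prime to `q`. -/
theorem Setup.cover_contra [Fact q.Prime] {x : G} (hx : idx x = n) (Q : Sylow q G)
    (h : ∀ v ∈ (Q : Subgroup G), ∃ g : G, Commute v (g * x * g⁻¹)) : False := by
  classical
  obtain ⟨k, hk⟩ : ∃ k, idx x = q ^ k := ⟨_, hx.trans S.n_eq⟩
  have hcop : (Q : Subgroup G).index.Coprime (cen x).index := by
    show (Q : Subgroup G).index.Coprime (idx x)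
    rw [hk]
    exact Nat.Coprime.pow_right _ (S.hq.coprime_iff_not_dvd.2 Q.not_dvd_index).symm
  have htop : (cen x).subgroupOf (Q : Subgroup G) = ⊤ := by
    refine CfsgLib.ClassSizes.eq_top_of_conj_cover _ fun v => ?_
    obtain ⟨g, hg⟩ := h v v.2
    obtain ⟨a, ha, b, hb, rfl⟩ := CfsgLib.Product.exists_mul_of_coprime_index hcop g
    refine ⟨⟨a, ha⟩, ?_⟩
    rw [Subgroup.mem_subgroupOf]
    show a⁻¹ * (v : G) * a ∈ cen x
    have e : a * b * x * (a * b)⁻¹ = a * x * a⁻¹ := by
      calc a * b * x * (a * b)⁻¹ = a * (b * x) * b⁻¹ * a⁻¹ := by group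
        _ = a * (x * b) * b⁻¹ * a⁻¹ := by rw [mem_cen.1 hb]
        _ = _ := by group
    rw [e] at hg
    have h2 := conj_commute hg a⁻¹
    rw [show a⁻¹ * (a * x * a⁻¹) * a⁻¹⁻¹ = x by group, inv_inv] at h2
    exact mem_cen_iff_commute.2 h2
  have hle : (Q : Subgroup G) ≤ cen x := Subgroup.subgroupOf_eq_top.1 htop
  exact Q.not_dvd_index (S.qn.trans (hx ▸ Subgroup.index_dvd_of_le hle))

/-- No two `p`-elements have class sizes `n` and `m`. -/
theorem Setup.same_prime {x y : G} (hxp : IsPElt p x) (hyp : IsPElt p y) (hx : idx x = n)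
    (hy : idx y = m) : False := by
  haveI := Fact.mk S.hp
  haveI := Fact.mk S.hq
  obtain ⟨Q, hQ⟩ := CfsgLib.ClassSizes.exists_sylow_le_of_not_dvd_index (cen y)
    (show ¬ q ∣ idx y by rw [hy]; exact S.not_q_m)
  obtain ⟨P, hP, hPy⟩ := Full.exists_le (K := (⊤ : Subgroup G))
    (CfsgLib.RankTwoClass.isPGroup_zpowers hyp) le_top
  obtain ⟨g, hgP, hgc⟩ := exists_conj_central_sylow (Sylow.ofCard P (by
    rw [hP.card, Subgroup.card_top])) hxp (show ¬ p ∣ idx x by rw [hx]; exact S.not_p_n)
  have hxy : g * x * g⁻¹ ∈ cen y :=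
    mem_cen_iff_commute.2 (hgc y (hPy (Subgroup.mem_zpowers y))).symm
  refine S.cover_contra hx Q fun v hv => ?_
  have hc : Commute y v := (mem_cen_iff_commute.1 (hQ hv)).symm
  have hcop : (orderOf y).Coprime (orderOf v) :=
    CfsgLib.TwoSizes.isPElt_coprime S.hp S.hq S.ne hyp (isPElt_of_mem Q.isPGroup' hv)
  have hyv : idx (y * v) = m ∨ idx (y * v) = n * m :=
    S.mem_of_dvd_m (hy ▸ idx_dvd_of_le (CfsgLib.TwoSizes.cen_mul_le hc hcop))
  have hfact : (Nat.card (cen (y * v))).factorization p = (Nat.card (cen y)).factorization p := by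
    have h1 := card_fact_add (y * v) p
    have h2 := card_fact_add y p
    have h3 := S.fact_p hyv
    have h4 := S.fact_p (g := y) (.inl hy)
    omega
  obtain ⟨T, hT⟩ := exists_full (s := p) (cen (y * v))
  obtain ⟨c, -, hc'⟩ := (hT.of_fact (CfsgLib.TwoSizes.cen_mul_le hc hcop) hfact).exists_conj_mem hxy
    (isPElt_conj hxp g)
  have h5 : c * (g * x * g⁻¹) * c⁻¹ ∈ cen v := by
    have := hT.le hc'
    rw [cen_mul_eq_inf hc hcop] at this
    exact this.2
  refine ⟨c * g, ?_⟩
  rw [show c * g * x * (c * g)⁻¹ = c * (g * x * g⁻¹) * c⁻¹ by group]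
  exact (mem_cen_iff_commute.1 h5).symm

end CfsgLib.ClassSizeNM
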